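import Cfsg.Agent.Glaub.Cyclic
import Cfsg.Agent.H74.AbChar

/-!
# Cyclic operator groups acting with constant centralizers (owner: helper74)
-/

set_option autoImplicit false
set_option linter.unusedSectionVars false
set_option linter.style.haveILetI false

universe u v w

namespace Cfsg.Agent.Glaub

open scoped ComplexConjugate BigOperators
open Cfsg Cfsg.Agent.CharBase Cfsg.Agent.Char

section

variable {Γ : Type u} [Group Γ] [Fintype Γ] (G : Subgroup Γ) [hGn : G.Normal] [Fintype G]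
  (S C : Subgroup Γ) [Fintype C]

theorem norm_coset (hCG : C ≤ G) (x : Γ) (hord : (orderOf x).Coprime (Nat.card G))
    (hCs : ∀ n ∈ G, (n ∈ C ↔ n * x = x * n)) (χh : IrrCharacter Γ)
    (hirr : IsIrrCharacter G (fun g : G => (χh : Γ → ℂ) g)) :
    classInner (fun c : C => (χh : Γ → ℂ) ((c : Γ) * x)) (fun c : C => (χh : Γ → ℂ) ((c : Γ) * x))
      = 1 := by
  classical
  have h1 := H79.sum_coset_eq G C hCG x hord hCs
      (fun x => (χh : Γ → ℂ) x * (χh : Γ → ℂ) x⁻¹) (fun x g => by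
        have e : (g * x * g⁻¹)⁻¹ = g * x⁻¹ * g⁻¹ := by group
        rw [e, irr_isClassFunction χh, irr_isClassFunction χh])
  have h2 := H79.sum_coset_mul_inv G χh hirr x
  have hG0 : (Nat.card G : ℂ) ≠ 0 := Nat.cast_ne_zero.mpr Nat.card_pos.ne'
  have hC0 : (Nat.card C : ℂ) ≠ 0 := Nat.cast_ne_zero.mpr Nat.card_pos.ne'
  have h3 : (Nat.card C : ℂ) * (Nat.card G : ℂ) = (Nat.card G : ℂ) *
        ∑ c : C, (χh : Γ → ℂ) ((c : Γ) * x) * (χh : Γ → ℂ) ((c : Γ) * x)⁻¹ := by
    calc (Nat.card C : ℂ) * (Nat.card G : ℂ) = (Nat.card C : ℂ) *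
            ∑ n : G, (χh : Γ → ℂ) ((n : Γ) * x) * (χh : Γ → ℂ) ((n : Γ) * x)⁻¹ := by rw [h2]
        _ = _ := h1
  have h4 : ∑ c : C, (χh : Γ → ℂ) ((c : Γ) * x) * (χh : Γ → ℂ) ((c : Γ) * x)⁻¹ =
        (Nat.card C : ℂ) := by
    have : (Nat.card G : ℂ) * (∑ c : C, (χh : Γ → ℂ) ((c : Γ) * x) *
        (χh : Γ → ℂ) ((c : Γ) * x)⁻¹) = (Nat.card G : ℂ) * (Nat.card C : ℂ) := by
      rw [← h3]; ring
    exact mul_left_cancel₀ hG0 this
  unfold classInner
  have h5 : ∑ c : C, (χh : Γ → ℂ) ((c : Γ) * x) * conj ((χh : Γ → ℂ) ((c : Γ) * x)) =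
      (Nat.card C : ℂ) := by
    rw [← h4]
    refine Finset.sum_congr rfl fun c _ => ?_
    rw [irr_inv]
  rw [h5, inv_mul_cancel₀ hC0]

theorem F_cf (hC : C = G ⊓ Subgroup.centralizer (S : Set Γ)) (χh : IrrCharacter Γ) (s : S) :
    IsClassFunction C (fun c : C => (χh : Γ → ℂ) ((c : Γ) * s)) := by
  intro c h
  have h1 := irr_isClassFunction χh ((c : Γ) * s) (h : Γ)
  simp only
  rw [← h1]
  have h2 := comm_C_S G S C hC (h⁻¹ : C) s s.2
  rw [Subgroup.coe_inv] at h2
  rw [Subgroup.coe_mul, Subgroup.coe_mul, Subgroup.coe_inv, mul_assoc, h2]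
  congr 1
  group

theorem sum_gam_sq [Fintype (IrrCharacter C)] (hC : C = G ⊓ Subgroup.centralizer (S : Set Γ))
    (hCG : C ≤ G) (s : S)
    (hord : (orderOf (s : Γ)).Coprime (Nat.card G))
    (hCs : ∀ n ∈ G, (n ∈ C ↔ n * s = s * n)) (χh : IrrCharacter Γ)
    (hirr : IsIrrCharacter G (fun g : G => (χh : Γ → ℂ) g)) :
    ∑ β : IrrCharacter C, gam S C (χh : Γ → ℂ) (β : C → ℂ) s *
      conj (gam S C (χh : Γ → ℂ) (β : C → ℂ) s) = 1 := by
  have h1 := norm_coset G C hCG (s : Γ) hord hCs χh hirr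
  rw [classInner_eq_sum (F_cf G S C hC χh s)] at h1
  rw [← h1]
  refine Finset.sum_congr rfl fun β _ => ?_
  unfold gam
  rw [CharBase.classInner_conj_symm]

theorem eq_sum_gam [Fintype (IrrCharacter C)] (hC : C = G ⊓ Subgroup.centralizer (S : Set Γ))
    (χh : IrrCharacter Γ) (s : S) (c : C) :
    (χh : Γ → ℂ) ((c : Γ) * s) = ∑ β : IrrCharacter C, gam S C (χh : Γ → ℂ) (β : C → ℂ) s *
      (β : C → ℂ) c :=
  classFun_apply_eq_sum (F_cf G S C hC χh s) c

/-- **Restriction to the fixed points when all nonidentity elements have the same centralizer.** -/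
theorem free_structure [Fintype S] (hScomm : ∀ a b : S, a * b = b * a)
    (hcop : (Nat.card G).Coprime (Nat.card S))
    (hC : C = G ⊓ Subgroup.centralizer (S : Set Γ)) (hCG : C ≤ G)
    (hfpf : ∀ x ∈ S, x ≠ 1 → G ⊓ Subgroup.centralizer ({x} : Set Γ) = C)
    (χh : IrrCharacter Γ) (hirr : IsIrrCharacter G (fun g : G => (χh : Γ → ℂ) g))
    (β : IrrCharacter C) (s : S) (hs : s ≠ 1) (hβ : gam S C (χh : Γ → ℂ) (β : C → ℂ) s ≠ 0) :
    ∃ (ε : ℤ) (μ : IrrCharacter S) (ϑ : C → ℂ), (ε = 1 ∨ ε = -1) ∧ IsCharacter C ϑ ∧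
      (∀ (c : C) (x : S), x ≠ 1 →
        (χh : Γ → ℂ) ((c : Γ) * x) = (ε : ℂ) * (β : C → ℂ) c * (μ : S → ℂ) x) ∧
      (∀ c : C, (χh : Γ → ℂ) c = (Nat.card S : ℂ) * ϑ c + (ε : ℂ) * (β : C → ℂ) c) := by
  classical
  haveI : Fintype (IrrCharacter C) := Fintype.ofFinite _
  haveI : Fintype (IrrCharacter S) := Fintype.ofFinite _
  have hγ := fun β' : IrrCharacter C => gam_isCharacter G S C hC hScomm χh β'
  choose a ha0 ha has using fun β' : IrrCharacter C => H74.ab_exists _ (hγ β')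
  have hcardS : 2 ≤ Nat.card S := by
    have : Nontrivial S := ⟨s, 1, hs⟩
    exact Finite.one_lt_card
  have hnorm : ∀ x : S, x ≠ 1 → ∑ β' : IrrCharacter C, gam S C (χh : Γ → ℂ) (β' : C → ℂ) x *
      conj (gam S C (χh : Γ → ℂ) (β' : C → ℂ) x) = 1 := by
    intro x hx
    refine sum_gam_sq G S C hC hCG x ?_ ?_ χh hirr
    · have h1 : orderOf (x : Γ) ∣ Nat.card S := by
        rw [Subgroup.orderOf_coe]; exact orderOf_dvd_natCard x
      exact (hcop.coprime_dvd_right h1).symm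
    · intro n hn
      have hx' : (x : Γ) ≠ 1 := fun h => hx (Subtype.ext h)
      have h2 := hfpf (x : Γ) x.2 hx'
      rw [← h2]
      constructor
      · intro h
        exact Subgroup.mem_centralizer_singleton_iff.mp h.2
      · intro h
        exact ⟨hn, Subgroup.mem_centralizer_singleton_iff.mpr h⟩
  have hsum : ∑ β' : IrrCharacter C, H74.quad (a β') = (Nat.card S : ℤ) - 1 := by
    have h1 : ((∑ β' : IrrCharacter C, H74.quad (a β') : ℤ) : ℂ) = (Nat.card S : ℂ) - 1 := by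
      push_cast
      simp only [← H74.sum_off_one hScomm _ (hγ _) _ (ha _)]
      rw [Finset.sum_comm]
      refine Eq.trans (Finset.sum_congr rfl (g := fun _ => (1 : ℂ)) ?_) ?_
      · intro x hx
        exact hnorm x (Finset.ne_of_mem_erase hx)
      rw [Finset.sum_const,
        Finset.card_erase_of_mem (Finset.mem_univ _), nsmul_eq_mul, mul_one, Finset.card_univ,
        ← Nat.card_eq_fintype_card, Nat.cast_sub Nat.card_pos]
      norm_num
    have h2 : (Nat.card S : ℂ) - 1 = (((Nat.card S : ℤ) - 1 : ℤ) : ℂ) := by push_cast; ring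
    rw [h2] at h1
    exact_mod_cast h1
  obtain ⟨l0, l1, hne⟩ := H74.exists_ne_of_ne_zero hScomm _ (a β) (has β) s hs hβ
  have hcardI : (Fintype.card (IrrCharacter S) : ℤ) = Nat.card S := by
    exact_mod_cast H74.ab_card hScomm
  obtain ⟨hlow, hstr⟩ := H74.quad_of_ne (a β) (ha0 β) hne
  rw [hcardI] at hlow hstr
  have hsplit := Finset.add_sum_erase Finset.univ (fun β' => H74.quad (a β')) (Finset.mem_univ β)
  rw [hsum] at hsplit
  have hnn : 0 ≤ ∑ β' ∈ Finset.univ.erase β, H74.quad (a β') :=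
    Finset.sum_nonneg fun β' _ => H74.quad_nonneg (a β')
  obtain ⟨c, ε, l2, hε, hc, hcoef⟩ := hstr (by linarith)
  have hrest : ∑ β' ∈ Finset.univ.erase β, H74.quad (a β') = 0 := by linarith
  have hconst : ∀ β', β' ≠ β → ∀ l l', a β' l = a β' l' := by
    intro β' hβ' l l'
    by_contra hne'
    have h1 := (H74.quad_of_ne (a β') (ha0 β') hne').1
    rw [hcardI] at h1
    have h2 := (Finset.sum_eq_zero_iff_of_nonneg (fun β' _ => H74.quad_nonneg (a β'))).mp hrest β'
      (Finset.mem_erase.mpr ⟨hβ', Finset.mem_univ _⟩)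
    rw [h2] at h1
    have : (2 : ℤ) ≤ Nat.card S := by exact_mod_cast hcardS
    linarith
  -- the constants
  let k : IrrCharacter C → ℤ := fun β' => if β' = β then c else a β' (oneIrr S)
  have hk0 : ∀ β', 0 ≤ k β' := fun β' => by
    simp only [k]; split_ifs
    · exact hc
    · exact ha0 β' _
  obtain ⟨hβ1, hβ2⟩ := H74.eq_of_const _ hScomm (a β) (has β) c ε l2 hcoef
  have hother : ∀ β', β' ≠ β → (∀ x : S, x ≠ 1 → gam S C (χh : Γ → ℂ) (β' : C → ℂ) x = 0) ∧
      gam S C (χh : Γ → ℂ) (β' : C → ℂ) 1 = (Nat.card S : ℂ) * (k β' : ℂ) := by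
    intro β' hβ'
    obtain ⟨h1, h2⟩ := H74.eq_of_const _ hScomm (a β') (has β') (k β') 0 (oneIrr S) (fun l => by
      simp only [k, if_neg hβ']
      rw [hconst β' hβ' l (oneIrr S)]
      split_ifs <;> ring)
    refine ⟨fun x hx => by rw [h1 x hx]; simp, by rw [h2]; simp⟩
  let ϑ : C → ℂ := ∑ β' : IrrCharacter C, (k β').toNat • (β' : C → ℂ)
  have hϑ : IsCharacter C ϑ := isCharacter_sum _ _ fun β' _ =>
    isCharacter_nsmul (irr_isCharacter β') _
  refine ⟨ε, l2, ϑ, hε, hϑ, ?_, ?_⟩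
  · intro c' x hx
    rw [eq_sum_gam G S C hC χh x c', Finset.sum_eq_single β]
    · rw [hβ1 x hx]; ring
    · intro β' _ hβ'
      rw [(hother β' hβ').1 x hx, zero_mul]
    · intro h; exact absurd (Finset.mem_univ _) h
  · intro c'
    have h1 := eq_sum_gam G S C hC χh 1 c'
    have e1 : (c' : Γ) * ((1 : S) : Γ) = c' := by simp
    rw [e1] at h1
    rw [h1]
    have h2 : ∀ β' : IrrCharacter C, gam S C (χh : Γ → ℂ) (β' : C → ℂ) 1 * (β' : C → ℂ) c' =
        (Nat.card S : ℂ) * (((k β').toNat : ℂ) * (β' : C → ℂ) c') +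
          (if β' = β then (ε : ℂ) * (β : C → ℂ) c' else 0) := by
      intro β'
      have hk : (((k β').toNat : ℤ) : ℂ) = (k β' : ℂ) := by
        rw [Int.toNat_of_nonneg (hk0 β')]
      have hk' : (((k β').toNat : ℕ) : ℂ) = (k β' : ℂ) := by
        rw [← hk]; push_cast; rfl
      by_cases hβ' : β' = β
      · subst hβ'
        have h3 : gam S C (χh : Γ → ℂ) (β' : C → ℂ) 1 = (Nat.card S : ℂ) * (c : ℂ) + ε := hβ2
        rw [h3, hk', if_pos rfl]
        simp only [k, if_true]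
        ring
      · rw [(hother β' hβ').2, hk', if_neg hβ']
        ring
    simp only [h2, Finset.sum_add_distrib, ← Finset.mul_sum]
    have h3 : ϑ c' = ∑ β' : IrrCharacter C, ((k β').toNat : ℂ) * (β' : C → ℂ) c' := by
      simp only [ϑ, Finset.sum_apply, Pi.smul_apply]
      refine Finset.sum_congr rfl fun β' _ => ?_
      simp
    rw [h3]
    simp

end

end Cfsg.Agent.Glaub
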